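import Cfsg.Agent.H27.Exceptional
import Cfsg.Agent.H27.Induction

/-!
# A star of virtual characters of norm three

Virtual characters of degree zero, norm three, mutual inner product two and principal coefficient
one share a second constituent, as soon as there are four of them.
-/

set_option autoImplicit false

namespace Cfsg.Agent.H21.SmithTyrer

variable {G : Type*} [Group G] [Fintype G]

theorem exists_star {n : ℕ} (hn : 4 ≤ n) (τ : Fin n → G → ℂ)
    (hgen : ∀ i, Cfsg.IsGeneralizedCharacter G (τ i)) (hone : ∀ i, τ i 1 = 0)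
    (hprin : ∀ i, Cfsg.classInner (τ i) (H26.oneIrr G).1 = 1)
    (hgram : ∀ i j, Cfsg.classInner (τ i) (τ j) = if i = j then 3 else 2) :
    ∃ (Y : Cfsg.IrrCharacter G) (δ : ℂ), δ * δ = 1 ∧ Y ≠ H26.oneIrr G ∧
      ∀ i, ∃ (X : Cfsg.IrrCharacter G) (e : ℂ), e * e = 1 ∧ X ≠ H26.oneIrr G ∧ X ≠ Y ∧
        ∀ g, τ i g = 1 + δ * Y.1 g - e * X.1 g := by
  classical
  have hone' : Cfsg.classInner (H26.oneIrr G).1 (H26.oneIrr G).1 = 1 :=
    H57.irr_inner_self (H26.oneIrr G).2
  have hprin' : ∀ i, Cfsg.classInner (H26.oneIrr G).1 (τ i) = 1 := fun i => by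
    rw [H26.classInner_comm, hprin i, map_one]
  obtain ⟨i₀⟩ : Nonempty (Fin n) := ⟨⟨0, by omega⟩⟩
  obtain ⟨ε, hε, μ, hμ, hμinj, hμτ⟩ := H27.exists_exceptional i₀ (fun i => τ i - τ i₀) (sub_self _)
    (fun i => (H27.genChars G).sub_mem (hgen i) (hgen i₀)) (fun i => by simp [hone])
    (fun i j hi hj => by
      rw [H26.classInner_sub_left, H26.classInner_sub_right, H26.classInner_sub_right, hgram,
        hgram, hgram, hgram, if_neg hi, if_neg (Ne.symm hj), if_pos rfl]
      split_ifs <;> norm_num)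
  set v : G → ℂ := τ i₀ - (H26.oneIrr G).1 with hv
  obtain ⟨c, hc⟩ := H57.gen_exists_coef ((H27.genChars G).sub_mem (hgen i₀)
    (H27.mem_genChars_of_isCharacter (H26.isCharacter_of_irr (H26.oneIrr G).2)))
  rw [← hv] at hc
  have hcv : ∀ χ : Cfsg.IrrCharacter G, Cfsg.classInner v χ.1 = (c χ : ℂ) := fun χ => by
    rw [hc, H26.classInner_sum_left, Finset.sum_eq_single χ]
    · rw [H57.classInner_zsmul_left, H57.irr_inner_self χ.2, mul_one]
    · intro b _ hb
      rw [H57.classInner_zsmul_left, H57.irr_inner_ne b.2 χ.2 (fun e => hb (Subtype.ext e)),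
        mul_zero]
    · simp
  have hsq : ∑ χ, c χ ^ 2 = 2 := by
    have h2 : Cfsg.classInner v v = 2 := by
      rw [hv, H26.classInner_sub_left, H26.classInner_sub_right, H26.classInner_sub_right, hgram,
        if_pos rfl, hprin, hprin', hone']
      norm_num
    rw [hc, H57.inner_self_coef] at h2
    exact_mod_cast h2
  have hunit : ∀ χ, c χ ≠ 0 → c χ = 1 ∨ c χ = -1 := by
    intro χ hχ
    have h3 := Finset.single_le_sum (fun x _ => sq_nonneg (c x)) (Finset.mem_univ χ)
    rw [hsq] at h3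
    have h5 : -1 ≤ c χ ∧ c χ ≤ 1 := ⟨by nlinarith, by nlinarith⟩
    omega
  have hc1 : c (H26.oneIrr G) = 0 := by
    have h := hcv (H26.oneIrr G)
    rw [hv, H26.classInner_sub_left, hprin, hone', sub_self] at h
    exact_mod_cast h.symm
  let m : Fin n → Cfsg.IrrCharacter G := fun i => ⟨μ i, hμ i⟩
  have hminj : Function.Injective m := fun i j e => hμinj (congrArg Subtype.val e)
  obtain ⟨εi, hεi, rfl⟩ : ∃ εi : ℤ, (εi = 1 ∨ εi = -1) ∧ ε = (εi : ℂ) := by
    rcases hε with rfl | rfl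
    · exact ⟨1, Or.inl rfl, by simp⟩
    · exact ⟨-1, Or.inr rfl, by simp⟩
  have hstep : ∀ i, i ≠ i₀ → εi * (c (m i) - c (m i₀)) = -1 := by
    intro i hi
    have h : Cfsg.classInner v (τ i - τ i₀) = ((-1 : ℤ) : ℂ) := by
      rw [hv, H26.classInner_sub_left, H26.classInner_sub_right, H26.classInner_sub_right, hgram,
        hgram, if_neg (Ne.symm hi), if_pos rfl, hprin', hprin']
      norm_num
    rw [show τ i - τ i₀ = (εi : ℂ) • (μ i - μ i₀) from hμτ i, H26.classInner_smul_right,
      H26.classInner_sub_right, show μ i = (m i).1 from rfl, show μ i₀ = (m i₀).1 from rfl,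
      hcv, hcv, map_intCast] at h
    exact_mod_cast h
  obtain ⟨i₁, hi₁, hrest⟩ : ∃ i₁, i₁ ≠ i₀ ∧ 3 ≤ ((Finset.univ : Finset (Fin n)).erase i₀).card := by
    have hcard : ((Finset.univ : Finset (Fin n)).erase i₀).card = n - 1 := by simp
    obtain ⟨i₁, hi₁⟩ := Finset.card_pos.1 (show 0 < ((Finset.univ : Finset (Fin n)).erase i₀).card by omega)
    exact ⟨i₁, (Finset.mem_erase.1 hi₁).1, by omega⟩
  have hc0 : c (m i₀) = εi := by
    by_cases h0 : c (m i₀) = 0
    · exfalso
      have hle : ((Finset.univ : Finset (Fin n)).erase i₀).card ≤ 2 := by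
        have h1 : ∑ i ∈ (Finset.univ : Finset (Fin n)).erase i₀, c (m i) ^ 2 ≤ 2 := by
          rw [← Finset.sum_image (f := fun χ => c χ ^ 2) hminj.injOn, ← hsq]
          exact Finset.sum_le_sum_of_subset_of_nonneg (Finset.subset_univ _) fun x _ _ => sq_nonneg _
        rw [Finset.sum_congr rfl (g := fun _ => (1 : ℤ)) fun i hi => by
          have h := hstep i (Finset.mem_erase.1 hi).1
          rw [h0, sub_zero] at h
          rcases hεi with e | e <;> rw [e] at h
          · rw [show c (m i) = -1 by omega]; norm_num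
          · rw [show c (m i) = 1 by omega]; norm_num] at h1
        rw [Finset.sum_const, nsmul_one] at h1
        exact_mod_cast h1
      omega
    · have h := hstep i₁ hi₁
      have h1 : c (m i₁) = 0 ∨ c (m i₁) = 1 ∨ c (m i₁) = -1 :=
        (em (c (m i₁) = 0)).imp_right (hunit (m i₁))
      rcases hεi with e | e <;> rcases hunit _ h0 with e' | e' <;> rw [e, e'] at h <;> omega
  have hci : ∀ i, i ≠ i₀ → c (m i) = 0 := fun i hi => by
    have h := hstep i hi
    rcases hεi with e | e <;> rw [hc0, e] at h <;> omega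
  have hεsq : εi ^ 2 = 1 := by rcases hεi with e | e <;> simp [e]
  have hrest1 : ∑ χ ∈ Finset.univ.erase (m i₀), c χ ^ 2 = 1 := by
    have h := Finset.add_sum_erase Finset.univ (fun χ => c χ ^ 2) (Finset.mem_univ (m i₀))
    simp only [hc0, hεsq, hsq] at h
    omega
  obtain ⟨Y, hY, hY0⟩ : ∃ Y ∈ Finset.univ.erase (m i₀), c Y ^ 2 ≠ 0 :=
    Finset.exists_ne_zero_of_sum_ne_zero (by omega)
  have hY0' : c Y ≠ 0 := fun e => hY0 (by rw [e]; ring)
  have hYsq : c Y ^ 2 = 1 := by rcases hunit Y hY0' with e | e <;> rw [e] <;> norm_num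
  have hsupp : ∀ χ, χ ≠ m i₀ → χ ≠ Y → c χ = 0 := by
    intro χ h1 h2
    have h := Finset.add_sum_erase (Finset.univ.erase (m i₀)) (fun χ => c χ ^ 2) hY
    simp only [hYsq, hrest1] at h
    have h' := Finset.single_le_sum (f := fun χ => c χ ^ 2) (fun x _ => sq_nonneg _)
      (Finset.mem_erase.2 ⟨h2, Finset.mem_erase.2 ⟨h1, Finset.mem_univ χ⟩⟩)
    exact pow_eq_zero_iff (two_ne_zero) |>.1 (le_antisymm (by omega) (sq_nonneg _))
  have hYne := (Finset.mem_erase.1 hY).1
  refine ⟨Y, (c Y : ℂ), by exact_mod_cast (pow_two (c Y)).symm.trans hYsq,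
    fun e => hY0' (e ▸ hc1), fun i => ⟨m i, (-εi : ℂ), by
      rw [neg_mul_neg]; exact_mod_cast (pow_two εi).symm.trans hεsq, ?_, ?_, ?_⟩⟩
  · intro e
    by_cases hi : i = i₀
    · subst hi
      rw [e, hc1] at hc0
      rcases hεi with e' | e' <;> omega
    · have h : Cfsg.classInner (τ i - τ i₀) (H26.oneIrr G).1 = 0 := by
        rw [H26.classInner_sub_left, hprin, hprin, sub_self]
      rw [show τ i - τ i₀ = (εi : ℂ) • (μ i - μ i₀) from hμτ i, H26.classInner_smul_left,
        H26.classInner_sub_left, show μ i = (H26.oneIrr G).1 from congrArg Subtype.val e, hone',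
        H57.irr_inner_ne (hμ i₀) (H26.oneIrr G).2 (fun e' => hi (hμinj
          ((congrArg Subtype.val e).trans e'.symm))), sub_zero, mul_one] at h
      rcases hεi with e' | e' <;> rw [e'] at h <;> norm_num at h
  · intro e
    by_cases hi : i = i₀
    · subst hi; exact hYne e.symm
    · exact hY0' (e ▸ hci i hi)
  · intro g
    have hvg : v g = (εi : ℂ) * (m i₀).1 g + (c Y : ℂ) * Y.1 g := by
      rw [hc, Finset.sum_eq_add_of_mem (m i₀) Y (Finset.mem_univ _) (Finset.mem_univ _) hYne.symm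
        (fun χ _ h => by rw [hsupp χ h.1 h.2, zero_smul])]
      simp [hc0]
    have hτg : τ i g - τ i₀ g = (εi : ℂ) * (μ i g - μ i₀ g) := congrFun (hμτ i) g
    rw [hv, Pi.sub_apply, H26.oneIrr_val] at hvg
    show τ i g = 1 + (c Y : ℂ) * Y.1 g - -(εi : ℂ) * μ i g
    linear_combination hτg + hvg

end Cfsg.Agent.H21.SmithTyrer
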