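import Cfsg.Agent.H39.SmithTyrer.Defs
import Cfsg.Agent.H21.SmithTyrer.Star

/-!
# Coherence of the characters `F ν`, given their inner products
-/

set_option autoImplicit false

open Cfsg.Agent.H39.SmithTyrer

namespace Cfsg.Agent.H21.SmithTyrer

universe u

variable {G : Type u} [Group G] [Fintype G] {p : ℕ} (D : Setup G p)

theorem F_one_apply (ν : ↥(D.P : Subgroup G) →* ℂˣ) : D.F ν 1 = 0 := by
  haveI : Fact p.Prime := ⟨D.hp⟩
  have h : pp p (1 : G) = 1 := pp_eq_one_iff.2 (by simpa using D.hp.not_dvd_one)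
  simp [Setup.F, Setup.ext, h]

theorem F_inv (ν : ↥(D.P : Subgroup G) →* ℂˣ) : D.F ν⁻¹ = D.F ν := by
  have h : D.twoSub ν⁻¹ = D.twoSub ν := by
    funext x
    have h1 : ν⁻¹ x = ν x⁻¹ := (map_inv ν x).symm ▸ rfl
    have h2 : ν⁻¹ x⁻¹ = ν x := by
      rw [MonoidHom.inv_apply, map_inv, inv_inv]
    simp only [Setup.twoSub, h1, h2]
    ring
  funext g
  simp only [Setup.F, h]

/-- There are at least four pairs `{ν, ν⁻¹}` of nontrivial characters, and one may choose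
representatives. -/
theorem exists_reps : ∃ (n : ℕ) (f : Fin n → (↥(D.P : Subgroup G) →* ℂˣ)), 4 ≤ n ∧
    (∀ i, f i ≠ 1) ∧ (∀ i j, i ≠ j → f i ≠ f j ∧ f i ≠ (f j)⁻¹) ∧
    ∀ ν, ν ≠ 1 → ∃ i, ν = f i ∨ ν = (f i)⁻¹ := by
  classical
  haveI : Fact p.Prime := ⟨D.hp⟩
  letI : CommGroup ↥(D.P : Subgroup G) :=
    { mul_comm := fun a b => Subtype.ext (D.comm _ a.2 _ b.2) }
  have hdual : Nat.card (↥(D.P : Subgroup G) →* ℂˣ) = Nat.card ↥(D.P : Subgroup G) :=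
    CommGroup.card_monoidHom_of_hasEnoughRootsOfUnity _ ℂ
  obtain ⟨k, hk⟩ := IsPGroup.iff_card.1 D.P.isPGroup'
  have hp3 : 3 ≤ p := by have := D.hp.two_le; have := D.odd; omega
  have hk2 : 2 ≤ k := by
    by_contra h
    apply D.ncyc
    interval_cases k
    · haveI : Subsingleton ↥(D.P : Subgroup G) :=
        (Nat.card_eq_one_iff_unique.1 (by simpa using hk)).1
      exact isCyclic_of_subsingleton
    · exact isCyclic_of_prime_card (p := p) (by simpa using hk)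
  have h9 : 9 ≤ Nat.card ↥(D.P : Subgroup G) := by
    rw [hk]
    calc 9 = 3 ^ 2 := by norm_num
      _ ≤ p ^ 2 := Nat.pow_le_pow_left hp3 2
      _ ≤ p ^ k := Nat.pow_le_pow_right (by omega) hk2
  have hodd : Odd (Nat.card ↥(D.P : Subgroup G)) := hk ▸ (D.hp.odd_of_ne_two D.odd).pow
  haveI : Finite (↥(D.P : Subgroup G) →* ℂˣ) :=
    Nat.finite_of_card_ne_zero (by rw [hdual]; omega)
  letI : Fintype (↥(D.P : Subgroup G) →* ℂˣ) := Fintype.ofFinite _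
  let e := Fintype.equivFin (↥(D.P : Subgroup G) →* ℂˣ)
  have hinv : ∀ ν : ↥(D.P : Subgroup G) →* ℂˣ, ν⁻¹ = ν → ν = 1 := by
    intro ν h
    ext x
    have hx : ν x ^ Nat.card ↥(D.P : Subgroup G) = 1 := by rw [← map_pow, pow_card_eq_one', map_one]
    have h2 : ν x * ν x = 1 := by
      nth_rw 1 [← h]
      rw [MonoidHom.inv_apply, inv_mul_cancel]
    obtain ⟨m, hm⟩ := hodd
    rw [hm, pow_succ, pow_mul, pow_two, h2, one_pow, one_mul] at hx
    rw [hx, MonoidHom.one_apply]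
  have hii : ∀ ν : ↥(D.P : Subgroup G) →* ℂˣ, ν⁻¹⁻¹ = ν := fun ν => inv_inv ν
  let s : Finset (↥(D.P : Subgroup G) →* ℂˣ) := Finset.univ.filter fun ν => e ν < e ν⁻¹
  let t : Finset (↥(D.P : Subgroup G) →* ℂˣ) := Finset.univ.filter fun ν => e ν⁻¹ < e ν
  have hst : t = s.image (fun ν => ν⁻¹) := by
    ext ν
    simp only [s, t, Finset.mem_image, Finset.mem_filter, Finset.mem_univ, true_and]
    exact ⟨fun h => ⟨ν⁻¹, by rwa [hii], hii ν⟩, by rintro ⟨μ, h, rfl⟩; rwa [hii]⟩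
  have hcov : ∀ ν, ν ≠ 1 → ν ∈ s ∨ ν ∈ t := by
    intro ν hν
    rcases lt_trichotomy (e ν) (e ν⁻¹) with h | h | h
    · exact Or.inl (by simp [s, h])
    · exact absurd (hinv ν (e.injective h).symm) hν
    · exact Or.inr (by simp [t, h])
  have hcard : 4 ≤ s.card := by
    have h1 : (Finset.univ.erase (1 : ↥(D.P : Subgroup G) →* ℂˣ)).card ≤ s.card + t.card :=
      (Finset.card_le_card fun ν hν => Finset.mem_union.2 (hcov ν (Finset.mem_erase.1 hν).1)).trans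
        (Finset.card_union_le _ _)
    rw [Finset.card_erase_of_mem (Finset.mem_univ _), Finset.card_univ, ← Nat.card_eq_fintype_card,
      hdual, hst, Finset.card_image_of_injective _ (fun a b hab => by rw [← hii a, hab, hii b])] at h1
    omega
  refine ⟨s.card, fun i => (s.equivFin.symm i).1, hcard, fun i h => ?_, fun i j hij => ⟨?_, ?_⟩, ?_⟩
  · have h' := (Finset.mem_filter.1 (s.equivFin.symm i).2).2
    simp only at h
    rw [h, show (1 : ↥(D.P : Subgroup G) →* ℂˣ)⁻¹ = 1 by ext x; simp] at h'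
    exact lt_irrefl _ h'
  · exact fun h => hij (s.equivFin.symm.injective (Subtype.ext h))
  · intro h
    simp only at h
    have h1 := (Finset.mem_filter.1 (s.equivFin.symm i).2).2
    have h2 := (Finset.mem_filter.1 (s.equivFin.symm j).2).2
    rw [h, hii] at h1
    exact lt_asymm h1 h2
  · intro ν hν
    rcases hcov ν hν with h | h
    · exact ⟨s.equivFin ⟨ν, h⟩, Or.inl (by simp)⟩
    · rw [hst, Finset.mem_image] at h
      obtain ⟨μ, hμ, rfl⟩ := h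
      exact ⟨s.equivFin ⟨μ, hμ⟩, Or.inr (by simp)⟩

theorem decomp_of_inner
    (hgen : ∀ ν : ↥(D.P : Subgroup G) →* ℂˣ, ν ≠ 1 → Cfsg.IsGeneralizedCharacter G (D.F ν))
    (h1 : ∀ ν : ↥(D.P : Subgroup G) →* ℂˣ, ν ≠ 1 →
      Cfsg.classInner (D.F ν) (H26.oneIrr G).1 = 1)
    (h3 : ∀ ν : ↥(D.P : Subgroup G) →* ℂˣ, ν ≠ 1 → Cfsg.classInner (D.F ν) (D.F ν) = 3)
    (h2 : ∀ ν μ : ↥(D.P : Subgroup G) →* ℂˣ, ν ≠ 1 → μ ≠ 1 → μ ≠ ν → μ ≠ ν⁻¹ →
      Cfsg.classInner (D.F ν) (D.F μ) = 2) :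
    ∃ (Y : Cfsg.IrrCharacter G) (δ : ℂ), δ * δ = 1 ∧ Y ≠ H26.oneIrr G ∧
      ∀ ν : ↥(D.P : Subgroup G) →* ℂˣ, ν ≠ 1 → ∃ (X : Cfsg.IrrCharacter G) (e : ℂ),
        e * e = 1 ∧ X ≠ H26.oneIrr G ∧ X ≠ Y ∧ ∀ g, D.F ν g = 1 + δ * Y.1 g - e * X.1 g := by
  obtain ⟨n, f, hn, hf1, hf, hcov⟩ := exists_reps D
  obtain ⟨Y, δ, hδ, hY, hX⟩ := exists_star hn (fun i => D.F (f i)) (fun i => hgen _ (hf1 i))
    (fun i => F_one_apply D _) (fun i => h1 _ (hf1 i)) (fun i j => by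
      split_ifs with h
      · subst h; exact h3 _ (hf1 i)
      · exact h2 _ _ (hf1 i) (hf1 j) (hf j i (Ne.symm h)).1 (hf j i (Ne.symm h)).2)
  refine ⟨Y, δ, hδ, hY, fun ν hν => ?_⟩
  obtain ⟨i, rfl | rfl⟩ := hcov ν hν
  · exact hX i
  · rw [F_inv]; exact hX i

end Cfsg.Agent.H21.SmithTyrer
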