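import Cfsg.Agent.H33.SmithTyrer.FGen
import Cfsg.Agent.H76.SmithTyrer.Sections
import Cfsg.Agent.H21.SmithTyrer.Reps

/-!
# Smith–Tyrer: the decomposition of the exceptional characters

`exists_decomp`: there is one irreducible `Y ≠ 1` and a sign `δ` such that each
`D.F ν` (`ν ≠ 1`) is `1 + δ Y - e X`.
-/

open Cfsg.Agent.H39.SmithTyrer

namespace Cfsg.Agent.H21.SmithTyrer

universe u

variable {G : Type u} [Group G] [Fintype G] {p : ℕ}

theorem exists_decomp (D : Setup G p) :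
    ∃ (Y : Cfsg.IrrCharacter G) (δ : ℂ), δ * δ = 1 ∧ Y ≠ H26.oneIrr G ∧
      ∀ ν : ↥(D.P : Subgroup G) →* ℂˣ, ν ≠ 1 → ∃ (X : Cfsg.IrrCharacter G) (e : ℂ),
        e * e = 1 ∧ X ≠ H26.oneIrr G ∧ X ≠ Y ∧ ∀ g, D.F ν g = 1 + δ * Y.1 g - e * X.1 g :=
  decomp_of_inner D (fun ν _ => H33.SmithTyrer.F_isGen D ν)
    (fun ν hν => H76.SmithTyrer.F_inner_one D ν hν)
    (fun ν hν => H76.SmithTyrer.F_inner_self D ν hν)
    (fun ν μ hν hμ h1 h2 => H76.SmithTyrer.F_inner D ν μ hν hμ h1 h2)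

end Cfsg.Agent.H21.SmithTyrer
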