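import Cfsg.Agent.H39.SmithTyrer.Tools
import Cfsg.Agent.H76.SmithTyrer.Sections

/-!
# Smith–Tyrer: the shared constituent is constant on the singular elements

`const_on_singular`: if `Y` is constant on sections, the inner products `⟨F ν, Y⟩ = δ` and Fourier
inversion on `P` make `Y` equal to `δ` on every `p`-singular element.
-/

set_option autoImplicit false

open Cfsg.Agent.H39.SmithTyrer
open scoped ComplexConjugate

namespace Cfsg.Agent.H21.SmithTyrer

universe u

variable {G : Type u} [Group G] [Fintype G] {p : ℕ}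

/-- An even function on `P` whose Fourier coefficients are all equal vanishes off `1`. -/
theorem eq_zero_of_sum_twoSub (D : Setup G p) [Fintype ↥(D.P : Subgroup G)]
    (b : ↥(D.P : Subgroup G) → ℂ) (hb : D.IsEven b)
    (h : ∀ ν : ↥(D.P : Subgroup G) →* ℂˣ, ν ≠ 1 → ∑ x, D.twoSub ν x * b x = 0)
    (y : ↥(D.P : Subgroup G)) (hy : y ≠ 1) : b y = 0 := by
  classical
  letI : CommGroup ↥(D.P : Subgroup G) :=
    { mul_comm := fun a b => Subtype.ext (D.comm _ a.2 _ b.2) }
  have hdual : Nat.card (↥(D.P : Subgroup G) →* ℂˣ) = Nat.card ↥(D.P : Subgroup G) :=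
    CommGroup.card_monoidHom_of_hasEnoughRootsOfUnity _ ℂ
  haveI : Finite (↥(D.P : Subgroup G) →* ℂˣ) :=
    Nat.finite_of_card_ne_zero (by rw [hdual]; exact Nat.card_pos.ne')
  letI : Fintype (↥(D.P : Subgroup G) →* ℂˣ) := Fintype.ofFinite _
  have hall : ∀ ν : ↥(D.P : Subgroup G) →* ℂˣ, ∑ x, (ν x : ℂ) * b x = ∑ x, b x := by
    intro ν
    have h0 : ∑ x, D.twoSub ν x * b x = 0 := by
      by_cases hν : ν = 1
      · refine Finset.sum_eq_zero fun x _ => ?_
        subst hν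
        simp [Setup.twoSub]
        norm_num
      · exact h ν hν
    have h1 : ∑ x, (ν x⁻¹ : ℂ) * b x = ∑ x, (ν x : ℂ) * b x :=
      Fintype.sum_equiv (Equiv.inv _) _ _ fun x => by
        show _ = (ν x⁻¹ : ℂ) * b x⁻¹
        rw [hb x]
    simp only [Setup.twoSub, sub_mul, Finset.sum_sub_distrib, h1, ← Finset.mul_sum] at h0
    linear_combination (-1 / 2 : ℂ) * h0
  have key : ∑ x, b x * ∑ ν : ↥(D.P : Subgroup G) →* ℂˣ, (ν (x * y⁻¹) : ℂ) =
      (∑ x, b x) * ∑ ν : ↥(D.P : Subgroup G) →* ℂˣ, (ν y⁻¹ : ℂ) := by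
    rw [Finset.mul_sum]
    simp only [Finset.mul_sum]
    rw [Finset.sum_comm]
    refine Finset.sum_congr rfl fun ν _ => ?_
    rw [← hall ν, Finset.sum_mul]
    refine Finset.sum_congr rfl fun x _ => ?_
    rw [map_mul, Units.val_mul]
    ring
  simp only [sum_hom_apply, inv_eq_one, if_neg hy, mul_zero, mul_inv_eq_one, mul_ite,
    Finset.sum_ite_eq', Finset.mem_univ, if_true] at key
  exact (mul_eq_zero.1 key).resolve_right (Nat.cast_ne_zero.2 Nat.card_pos.ne')

theorem const_on_singular (D : Setup G p) (Y : Cfsg.IrrCharacter G) (δ : ℂ) (hδ : δ * δ = 1)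
    (hY : Y ≠ H26.oneIrr G)
    (hν : ∀ ν : ↥(D.P : Subgroup G) →* ℂˣ, ν ≠ 1 → ∃ (X : Cfsg.IrrCharacter G) (e : ℂ),
      e * e = 1 ∧ X ≠ H26.oneIrr G ∧ X ≠ Y ∧ ∀ g, D.F ν g = 1 + δ * Y.1 g - e * X.1 g)
    (hYsec : ∀ g : G, pp p g ≠ 1 → Y.1 g = Y.1 (D.rep g : G)) :
    ∀ g, pp p g ≠ 1 → Y.1 g = δ := by
  classical
  have hδc : conj δ = δ := by
    rcases mul_self_eq_one_iff.1 hδ with rfl | rfl <;> simp
  set a : ↥(D.P : Subgroup G) → ℂ := fun x => conj (Y.1 (x : G)) with ha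
  have hae : D.IsEven a := fun x => by
    show conj _ = conj _
    rw [InvMemClass.coe_inv, ← D.inv _ x.2, H26.irr_conj]
  have hinner : ∀ ν : ↥(D.P : Subgroup G) →* ℂˣ, ν ≠ 1 → Cfsg.classInner (D.F ν) Y.1 = δ := by
    intro ν h1
    obtain ⟨X, e, -, -, hXY, hF⟩ := hν ν h1
    have hfun : D.F ν = (H26.oneIrr G).1 + δ • Y.1 - e • X.1 := funext fun g => by
      rw [hF g]
      simp [H26.oneIrr_val]
    rw [hfun, H26.classInner_sub_left, H26.classInner_add_left, H26.classInner_smul_left,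
      H26.classInner_smul_left, H26.classInner_irr, H26.classInner_irr, H26.classInner_irr,
      if_neg (Ne.symm hY), if_pos rfl, if_neg hXY]
    ring
  have hsum : ∀ ν : ↥(D.P : Subgroup G) →* ℂˣ, ν ≠ 1 →
      ∑ x, D.twoSub ν x * a x = 2 * (Nat.card ↥(D.P : Subgroup G) : ℂ) * δ := by
    intro ν h1
    have hev : D.IsEven (fun x => D.twoSub ν x * a x) := fun x => by
      show _ * _ = _ * _
      rw [D.twoSub_isEven ν x, hae x]
    have hz : D.twoSub ν 1 * a 1 = 0 := by rw [H76.SmithTyrer.twoSub_one, zero_mul]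
    have hs := H76.SmithTyrer.sum_singular D _ hev
    rw [Finset.sum_erase (f := fun x => D.twoSub ν x * a x) _ hz] at hs
    have he : ∀ g, D.ext (fun x => D.twoSub ν x * a x) g = D.F ν g * conj (Y.1 g) := by
      intro g
      by_cases hg : pp p g = 1
      · simp [Setup.F, Setup.ext, hg]
      · simp [Setup.F, Setup.ext, hg, ha, hYsec g hg]
    have hci := hinner ν h1
    unfold Cfsg.classInner at hci
    rw [Finset.sum_congr rfl fun g _ => he g] at hs
    have hG : (Nat.card G : ℂ) ≠ 0 := Nat.cast_ne_zero.2 Nat.card_pos.ne'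
    rw [inv_mul_eq_iff_eq_mul₀ hG] at hci
    rw [hci] at hs
    refine mul_left_cancel₀ hG (hs.symm.trans ?_)
    ring
  have hb : ∀ y : ↥(D.P : Subgroup G), y ≠ 1 → a y - δ = 0 := fun y hy =>
    eq_zero_of_sum_twoSub D (fun x => a x - δ) (fun x => by show _ - _ = _ - _; rw [hae x])
      (fun ν h1 => by
        simp only [mul_sub, Finset.sum_sub_distrib, hsum ν h1, ← Finset.sum_mul,
          H76.SmithTyrer.sum_twoSub D h1]
        ring) y hy
  intro g hg
  have hr : D.rep g ≠ 1 := fun h => hg ((D.rep_eq_one_iff g).1 h)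
  have h := sub_eq_zero.1 (hb _ hr)
  rw [hYsec g hg, ← Complex.conj_conj (Y.1 (D.rep g : G))]
  exact (congrArg conj h).trans hδc

end Cfsg.Agent.H21.SmithTyrer
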